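import Mathlib

set_option autoImplicit false

namespace Cfsg.Agent.Lib.helper16.A6Facts

open Equiv

set_option maxRecDepth 100000 in
/-- Element orders in `A₆` are at most `5`. -/
theorem a6_orders : ∀ σ : Perm (Fin 6), Perm.sign σ = 1 →
    σ = 1 ∨ σ ^ 2 = 1 ∨ σ ^ 3 = 1 ∨ σ ^ 4 = 1 ∨ σ ^ 5 = 1 := by decide +kernel

set_option maxRecDepth 100000 in
/-- The centralizer in `A₆` of an involution of `A₆` has order `8`. -/
theorem a6_cent : ∀ t : Perm (Fin 6), Perm.sign t = 1 → t * t = 1 → t ≠ 1 →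
    (Finset.univ.filter (fun σ : Perm (Fin 6) => Perm.sign σ = 1 ∧ σ * t = t * σ)).card = 8 := by
  decide +kernel

set_option maxRecDepth 100000 in
/-- For an involution `t` of `A₆` there are `16` involutions `σ` of `A₆` with `t σ` of order `3`. -/
theorem a6_three : ∀ t : Perm (Fin 6), Perm.sign t = 1 → t * t = 1 → t ≠ 1 →
    (Finset.univ.filter (fun σ : Perm (Fin 6) => Perm.sign σ = 1 ∧ σ * σ = 1 ∧ σ ≠ 1 ∧
      (t * σ) ^ 3 = 1 ∧ t * σ ≠ 1)).card = 16 := by
  decide +kernel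

set_option maxRecDepth 100000 in
/-- For an involution `t` of `A₆` there are `16` involutions `σ` of `A₆` with `t σ` of order `5`. -/
theorem a6_five : ∀ t : Perm (Fin 6), Perm.sign t = 1 → t * t = 1 → t ≠ 1 →
    (Finset.univ.filter (fun σ : Perm (Fin 6) => Perm.sign σ = 1 ∧ σ * σ = 1 ∧ σ ≠ 1 ∧
      (t * σ) ^ 5 = 1 ∧ t * σ ≠ 1)).card = 16 := by
  decide +kernel

end Cfsg.Agent.Lib.helper16.A6Facts
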