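import Mathlib
import Cfsg.Prelude.Def_Transfer
import Cfsg.Agent.S0072
import Cfsg.Agent.Lib.lead.Frobenius
import Cfsg.Agent.Lib.helper16.OddAct

set_option autoImplicit false

namespace Cfsg.Agent.Lib.helper16

/-- For a subgroup `H` of index 2 and a Sylow 2-subgroup `S`: `S ∩ H` has index 2 in `S` and
odd index in `H`. -/
theorem sylow_inf_index_two {G : Type*} [Group G] [Finite G] (H : Subgroup G) (hH : H.index = 2)
    (S : Sylow 2 G) :
    H.relIndex (S : Subgroup G) = 2 ∧ (S : Subgroup G).relIndex H = (S : Subgroup G).index := by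
  have h2 : Fact (Nat.Prime 2) := ⟨Nat.prime_two⟩
  have hn : H.Normal := Subgroup.normal_of_index_eq_two hH
  have h1 : ((S : Subgroup G) ⊓ H).relIndex (S : Subgroup G) * (S : Subgroup G).index
      = ((S : Subgroup G) ⊓ H).index := Subgroup.relIndex_mul_index inf_le_left
  have h3 : ((S : Subgroup G) ⊓ H).relIndex H * H.index = ((S : Subgroup G) ⊓ H).index :=
    Subgroup.relIndex_mul_index inf_le_right
  rw [Subgroup.inf_relIndex_left] at h1
  rw [Subgroup.inf_relIndex_right, hH] at h3
  have h4 : H.relIndex (S : Subgroup G) ∣ 2 := by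
    have := Subgroup.relIndex_dvd_index_of_normal H (S : Subgroup G)
    rwa [hH] at this
  have h5 : ¬ 2 ∣ (S : Subgroup G).index := S.not_dvd_index
  have h6 : H.relIndex (S : Subgroup G) = 1 ∨ H.relIndex (S : Subgroup G) = 2 := by
    have := (Nat.dvd_prime Nat.prime_two).mp h4
    exact this
  rcases h6 with h6 | h6
  · exfalso
    rw [h6, one_mul] at h1
    apply h5
    rw [h1, ← h3]
    exact dvd_mul_left 2 _
  · refine ⟨h6, ?_⟩
    rw [h6] at h1
    omega

/-- Burnside-type criterion at the prime 2: an abelian Sylow 2-subgroup that is centralized by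
every odd-order element normalizing it has a normal complement. -/
theorem normal_two_complement_of_abelian_sylow {X : Type*} [Group X] [Finite X] (T : Sylow 2 X)
    (hTc : ∀ x ∈ (T : Subgroup X), ∀ y ∈ (T : Subgroup X), x * y = y * x)
    (hodd : ∀ g : X, Odd (orderOf g) → (∀ t ∈ (T : Subgroup X), g * t * g⁻¹ ∈ (T : Subgroup X)) →
      ∀ t ∈ (T : Subgroup X), g * t = t * g) :
    Cfsg.HasNormalPComplement 2 X := by
  have h2 : Fact (Nat.Prime 2) := ⟨Nat.prime_two⟩
  have hP : Subgroup.normalizer ((T : Subgroup X) : Set X) ≤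
      Subgroup.centralizer ((T : Subgroup X) : Set X) := by
    intro x hx
    have hxn : ∀ t ∈ (T : Subgroup X), x * t * x⁻¹ ∈ (T : Subgroup X) := by
      intro t ht
      exact (Subgroup.mem_normalizer_iff.mp hx t).mp ht
    obtain ⟨k, m, hm, hkm⟩ := Nat.exists_eq_two_pow_mul_odd (orderOf_pos x).ne'
    obtain ⟨N, hN⟩ : ∃ N : ℕ, N = 2 ^ k := ⟨_, rfl⟩
    rw [← hN] at hkm
    have hNpos : 0 < N := by rw [hN]; positivity
    -- odd part
    have ho : Odd (orderOf (x ^ N)) := by
      have : orderOf (x ^ N) = m := by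
        rw [orderOf_pow_of_dvd hNpos.ne' (by rw [hkm]; exact dvd_mul_right _ _), hkm]
        exact Nat.mul_div_cancel_left m hNpos
      rw [this]; exact hm
    have hc1 : ∀ t ∈ (T : Subgroup X), x ^ N * t = t * x ^ N :=
      hodd _ ho (conj_pow_mem (T : Subgroup X) x hxn N)
    -- 2-part
    have hx2 : x ^ m ∈ (T : Subgroup X) := by
      have hpz : IsPGroup 2 (Subgroup.zpowers (x ^ m)) := by
        apply IsPGroup.of_card (n := k)
        rw [Nat.card_zpowers, orderOf_pow_of_dvd hm.pos.ne' (by rw [hkm]; exact dvd_mul_left _ _),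
          hkm, ← hN]
        exact Nat.mul_div_cancel _ hm.pos
      have hle : Subgroup.zpowers (x ^ m) ≤ Subgroup.normalizer ((T : Subgroup X) : Set X) := by
        rw [Subgroup.zpowers_le]
        exact Subgroup.pow_mem _ hx m
      have hsup : IsPGroup 2 ((Subgroup.zpowers (x ^ m) ⊔ (T : Subgroup X) : Subgroup X)) :=
        IsPGroup.to_sup_of_normal_right' hpz T.2 hle
      have := T.is_maximal' hsup le_sup_right
      rw [← this]
      exact Subgroup.mem_sup_left (Subgroup.mem_zpowers _)
    have hc2 : ∀ t ∈ (T : Subgroup X), x ^ m * t = t * x ^ m := fun t ht => hTc _ hx2 t ht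
    have hcop : Nat.Coprime N m := by
      rw [hN]
      exact Nat.Coprime.pow_left k (Nat.coprime_two_left.mpr hm)
    rw [Subgroup.mem_centralizer_iff]
    intro t ht
    -- x is in the subgroup generated by x^(2^k) and x^m
    have hx : x ∈ Subgroup.centralizer ({t} : Set X) := by
      have ha : x ^ N ∈ Subgroup.centralizer ({t} : Set X) := by
        rw [Subgroup.mem_centralizer_singleton_iff]; exact (hc1 t ht)
      have hb : x ^ m ∈ Subgroup.centralizer ({t} : Set X) := by
        rw [Subgroup.mem_centralizer_singleton_iff]; exact (hc2 t ht)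
      have hg : x ^ ((N : ℤ).gcd (m : ℤ)) ∈ Subgroup.centralizer ({t} : Set X) := by
        have hbez := Int.gcd_eq_gcd_ab (N : ℤ) (m : ℤ)
        have : x ^ ((((N : ℤ).gcd (m : ℤ)) : ℕ) : ℤ) ∈
            Subgroup.centralizer ({t} : Set X) := by
          rw [hbez, zpow_add, zpow_mul, zpow_mul]
          apply Subgroup.mul_mem
          · apply Subgroup.zpow_mem; simpa using ha
          · apply Subgroup.zpow_mem; simpa using hb
        simpa using this
      have hgcd : (N : ℤ).gcd (m : ℤ) = 1 := by
        rw [Int.gcd_natCast_natCast]; exact hcop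
      rw [hgcd, pow_one] at hg
      exact hg
    rw [Subgroup.mem_centralizer_singleton_iff] at hx
    exact hx.symm
  exact ⟨T, (MonoidHom.transferSylow T hP).ker, inferInstance,
    MonoidHom.ker_transferSylow_isComplement' T hP⟩

/-- A normal `p`-complement of a normal subgroup of `p`-power index gives one of the group. -/
theorem hasNormalPComplement_of_normal_index {G : Type*} [Group G] [Finite G] (p : ℕ)
    [Fact p.Prime] (H : Subgroup G) [hHn : H.Normal] (a : ℕ) (hH : H.index = p ^ a)
    (h : Cfsg.HasNormalPComplement p H) : Cfsg.HasNormalPComplement p G := by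
  rw [Cfsg.Agent.S0072.hasNormalPComplement_iff] at h ⊢
  obtain ⟨K, hKn, hKc, b, hKb⟩ := h
  refine ⟨K.map H.subtype, ?_, ?_, a + b, ?_⟩
  · constructor
    intro x hx g
    obtain ⟨k, hk, rfl⟩ := hx
    have hmem : g * (k : G) * g⁻¹ ∈ H := hHn.conj_mem _ k.2 g
    have hk' := (Cfsg.Agent.Lib.lead.mem_iff_coprime K hKc hKb k).mp hk
    have hgoal : (⟨g * (k : G) * g⁻¹, hmem⟩ : H) ∈ K := by
      rw [Cfsg.Agent.Lib.lead.mem_iff_coprime K hKc hKb]
      have e1 : orderOf (⟨g * (k : G) * g⁻¹, hmem⟩ : H) = orderOf (g * (k : G) * g⁻¹) := by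
        rw [← Subgroup.orderOf_coe]
      have e2 : orderOf (g * (k : G) * g⁻¹) = orderOf (k : G) := by
        have := MulEquiv.orderOf_eq (MulAut.conj g) (k : G)
        simpa [MulAut.conj_apply] using this
      rw [e1, e2, Subgroup.orderOf_coe]
      exact hk'
    exact ⟨⟨g * (k : G) * g⁻¹, hmem⟩, hgoal, rfl⟩
  · rw [Subgroup.card_map_of_injective H.subtype_injective]
    exact hKc
  · rw [Subgroup.index_map_subtype, hKb, hH, pow_add, mul_comm]

end Cfsg.Agent.Lib.helper16
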