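import Mathlib
import Cfsg.Agent.Lib.helper15.RankTwo3
import Cfsg.Agent.Lib.helper14.S1456M1
import Cfsg.Agent.Lib.helper15.S1456M2
import Cfsg.Agent.Lib.lead.S1456M4
import Cfsg.Agent.Lib.helper5.S1455M3
import Cfsg.Agent.Lib.helper1.RankTwoAut

set_option autoImplicit false

/-!
Piece (Q5) of the S1455 split project: an element of prime order `q > p` centralizes a normal
`p`-subgroup `P` having an elementary abelian subgroup `E` whose centralizer in `P` has rank at most 2.
-/

namespace Cfsg.Agent.Lib.helper16.S1455Q5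

open scoped commutatorElement

theorem narrow_prime_centralizes {G : Type*} [Group G] [Finite G] [Group.IsSolvable G]
    (hodd : Odd (Nat.card G)) (p : ℕ) [Fact p.Prime] (P : Subgroup G) [P.Normal]
    (hP : IsPGroup p P) (E : Subgroup G) (hEP : E ≤ P)
    (hEc : ∀ a ∈ E, ∀ b ∈ E, a * b = b * a) (hEp : ∀ a ∈ E, a ^ p = 1)
    (hr : ∀ B : Subgroup G, B ≤ P → B ≤ Subgroup.centralizer (E : Set G) →
      (∀ a ∈ B, ∀ b ∈ B, a * b = b * a) → (∀ b ∈ B, b ^ p = 1) → Nat.card B ≤ p ^ 2)
    (q : ℕ) (hq : q.Prime) (hpq : p < q) (g : G) (hg : orderOf g = q) :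
    g ∈ Subgroup.centralizer (P : Set G) := by
  have hpp : p.Prime := Fact.out
  have hPn : P.Normal := inferInstance
  haveI hqf : Fact q.Prime := ⟨hq⟩
  by_cases hp2 : p = 2
  · have hPbot : P = ⊥ := by
      obtain ⟨n, hn⟩ := IsPGroup.iff_card.mp hP
      have hdvd : Nat.card P ∣ Nat.card G := Subgroup.card_subgroup_dvd_card P
      rw [hn, hp2] at hdvd
      have hn0 : n = 0 := by
        by_contra hn0
        have h2 : 2 ∣ Nat.card G := dvd_trans (dvd_pow_self 2 hn0) hdvd
        exact (Nat.not_even_iff_odd.mpr hodd) (even_iff_two_dvd.mpr h2)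
      rw [hn0, pow_zero] at hn
      exact Subgroup.card_eq_one.mp hn
    rw [Subgroup.mem_centralizer_iff]
    intro x hx
    rw [SetLike.mem_coe, hPbot] at hx
    rw [Subgroup.mem_bot.mp hx]; simp
  have hcop : (orderOf g).Coprime p := by
    rw [hg]; exact (Nat.coprime_primes hq hpp).mpr (Nat.ne_of_gt hpq)
  obtain ⟨D, hDP, hDexp, hDcl, hDnorm, hDcrit⟩ :=
    Cfsg.Agent.Lib.helper15.GL2D.exists_critical p hp2 P hP
  have hPtop : Subgroup.normalizer (P : Set G) = ⊤ := Subgroup.normalizer_eq_top_iff.mpr hPn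
  rw [hPtop] at hDnorm
  have hDn : D.Normal := Subgroup.normalizer_eq_top_iff.mp (top_le_iff.mp hDnorm)
  have hmemN : g ∈ Subgroup.normalizer (P : Set G) := by rw [hPtop]; exact Subgroup.mem_top g
  suffices hgD : g ∈ Subgroup.centralizer (D : Set G) from hDcrit g hmemN hcop hgD
  obtain ⟨e, heP, hep, he⟩ :=
    Cfsg.Agent.Lib.helper14.S1456M1.exists_small_centralizer p P hP E hEP hEc hEp hr
  by_cases heD : e ∈ D
  · have hrk := Cfsg.Agent.Lib.helper15.S1456M2.rank_of_mem p D hDexp hDcl e heD
      (fun B hBD hBe hBc =>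
        he B (hBD.trans hDP) hBe hBc (fun b hb => hDexp b (hBD hb)))
    by_contra hgD
    have hDp : IsPGroup p ↥D := hP.to_le hDP
    have hrD : Cfsg.PRankLE p 2 ↥D := by
      intro A hA _
      have hB := hrk (A.map D.subtype) (Subgroup.map_subtype_le A) (by
        rintro _ ⟨a, ha, rfl⟩ _ ⟨b, hb, rfl⟩
        have h1 := hA.is_comm.comm (⟨a, ha⟩ : A) ⟨b, hb⟩
        have h2 := congrArg (fun w : A => ((w : ↥D) : G)) h1
        exact h2)
      rwa [← Nat.card_congr (Subgroup.equivMapOfInjective A D.subtype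
        D.subtype_injective).toEquiv] at hB
    have hdvd : q ∣ Nat.card (MulAut ↥D) := by
      have h1 : orderOf (MulAut.conjNormal g : MulAut ↥D) = q := by
        have h2 : (MulAut.conjNormal g : MulAut ↥D) ^ q = 1 := by
          rw [← map_pow, ← hg, pow_orderOf_eq_one, map_one]
        have h3 : (MulAut.conjNormal g : MulAut ↥D) ≠ 1 := by
          intro h4
          apply hgD
          rw [Subgroup.mem_centralizer_iff]
          intro r hr
          have h6 : ((MulAut.conjNormal g (⟨r, hr⟩ : ↥D) : ↥D) : G) = r := by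
            rw [h4]
            rfl
          rw [MulAut.conjNormal_apply] at h6
          calc r * g = g * r * g⁻¹ * g := by rw [h6]
            _ = g * r := by group
        exact orderOf_eq_prime h2 h3
      rw [← h1]
      exact orderOf_dvd_natCard _
    have h8 := (Cfsg.Agent.Lib.helper1.rank_two_aut_prime ↥D hp2 hDp hrD q hq
      (Nat.ne_of_gt hpq) hdvd).2
    omega
  · have hfix := Cfsg.Agent.Lib.lead.S1456M4.fix_card_le p P D hP hDP hDexp e heP hep heD he
    refine Cfsg.Agent.Lib.helper5.S1455M3.cent_of_small_fix_coprime p P D hP hDP e heP hfix g ?_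
    rw [hg]
    have h1 : q.Coprime p := (Nat.coprime_primes hq hpp).mpr (Nat.ne_of_gt hpq)
    have h2 : q.Coprime (p - 1) := by
      rw [Nat.Prime.coprime_iff_not_dvd hq]
      intro h
      have h3 := Nat.le_of_dvd (by have := hpp.two_le; omega) h
      omega
    exact Nat.Coprime.mul_right h1 h2

end Cfsg.Agent.Lib.helper16.S1455Q5
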