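import Mathlib
import Cfsg.Agent.Lib.helper16.ZStar
import Cfsg.Agent.Lib.helper6.Isolated

set_option autoImplicit false

/-! Consequences of the Z*-theorem for isolated involutions (`Cfsg.IsIsolatedInvolution`). -/

namespace Cfsg.Agent.Lib.helper16.ZStar

open Cfsg

universe u

variable {G : Type u} [Group G] [Finite G]

theorem co_of_isolated {z : G} (hz : Cfsg.IsIsolatedInvolution z) : CO z := by
  refine ⟨hz.1, fun x => ?_⟩
  have h := Cfsg.Agent.Lib.helper6.iso_odd hz x
  have e : z * x * z⁻¹ * x⁻¹ = z * (x * z * x⁻¹) := by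
    rw [inv_eq_of_mul_eq_one_left (Cfsg.Agent.Lib.helper6.iso_mul_self hz)]; group
  rw [e]; exact h

/-- Z*-theorem for isolated involutions -/
theorem zstar_isolated {z : G} (hz : Cfsg.IsIsolatedInvolution z) (g : G) :
    z * g * z⁻¹ * g⁻¹ ∈ Cfsg.pPrimeCore 2 G :=
  zstar z hz.1 (co_of_isolated hz).2 g

/-- all conjugates of an isolated involution have the same image modulo `O(G)` -/
theorem conj_mul_mem_of_co {t : G} (ht : CO t) (g : G) :
    t * (g * t * g⁻¹) ∈ Cfsg.pPrimeCore 2 G := by
  rw [← ht.comm_eq]; exact zstar t ht.1 ht.2 g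

end Cfsg.Agent.Lib.helper16.ZStar
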